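import Cfsg.Agent.Uni36.NS.F

set_option autoImplicit false
set_option linter.unusedSectionVars false

/-! The case of four elements: `SL₂(4)` is normal or the group is `A₇`. -/

namespace Cfsg.Agent.Uni36.NS

open Matrix

variable {F : Type*} [Field F] [Finite F]
variable {G : Type*} [Group G] [Finite G]

variable (θ : G →* AddMonoid.End (Fin 2 → F)) (ι : Matrix.SpecialLinearGroup (Fin 2) F →* G)
  (hθ : Function.Injective θ) (hι : ∀ l, θ (ι l) = sl l)

/-- a simple group of order 360 has no subgroup of index three -/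
theorem no_index_three (hs : IsSimpleGroup G) (hG : Nat.card G = 360) (N : Subgroup G) (hN : N.index = 3) : False := by
  classical
  let f : G →* Equiv.Perm (G ⧸ N) := MulAction.toPermHom G (G ⧸ N)
  have h1 : f.ker ≠ ⊤ := by
    intro h
    have h2 : f.ker ≤ N := by
      intro x hx
      have h3 : f x = 1 := hx
      have h4 : x • (QuotientGroup.mk (1 : G) : G ⧸ N) = QuotientGroup.mk 1 :=
        congrArg (fun e : Equiv.Perm (G ⧸ N) => e (QuotientGroup.mk 1)) h3
      have h5 : (QuotientGroup.mk (x * 1) : G ⧸ N) = QuotientGroup.mk 1 := h4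
      rw [QuotientGroup.eq] at h5
      simpa using h5
    rw [h] at h2
    have h3 : N = ⊤ := top_le_iff.mp h2
    rw [h3, Subgroup.index_top] at hN
    omega
  have h2 : f.ker = ⊥ := by
    rcases (inferInstance : f.ker.Normal).eq_bot_or_eq_top with h | h
    · exact h
    · exact absurd h h1
  have h3 : Function.Injective f := (MonoidHom.ker_eq_bot_iff f).mp h2
  have h4 := Nat.card_le_card_of_injective f h3
  rw [hG, Nat.card_perm, ← Subgroup.index_eq_card, hN] at h4
  simp [Nat.factorial] at h4

section sylow

variable [Algebra (ZMod 2) F]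
variable (P0 : Sylow 2 G) (hP1 : ∀ b : F, ι (ut b) ∈ (P0 : Subgroup G))
  (hP2 : (P0 : Subgroup G) ≤ Subgroup.normalizer (ι.range : Set G))

include hP1 hP2 hι hθ in
theorem four_case [CharP F 2] (hF : Nat.card F = 4) : ι.range.Normal ∨ Nonempty (G ≃* alternatingGroup (Fin 7)) := by
  classical
  haveI : Fact (Nat.Prime 2) := ⟨Nat.prime_two⟩
  have hcG := card_G θ ι hθ hι P0 hP1 hP2 hF
  have hinj := iota_inj θ ι hθ hι
  have hcL : Nat.card ι.range = 60 := by
    rw [← card_sl2 hF]
    exact (Nat.card_congr (MonoidHom.ofInjective hinj).toEquiv).symm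
  have h60 : 60 ∣ Nat.card G := by
    rw [← hcL]; exact Subgroup.card_subgroup_dvd_card _
  by_cases hns : Cfsg.Agent.H43.NSN G
  · obtain ⟨φ, hφ, hφ2⟩ := embed θ hθ hF
    have e : G ≃* φ.range := MonoidHom.ofInjective hφ
    have hc : Nat.card φ.range = Nat.card G := (Nat.card_congr e.toEquiv).symm
    have h5 : 5 ∣ Nat.card φ.range := by
      rw [hc]; exact (by norm_num : (5 : ℕ) ∣ 60).trans h60
    rcases Cfsg.Agent.H43.five_case φ.range hφ2 (hns.of_equiv e) h5 with ⟨n, hn5, hn8, ⟨k⟩⟩ | ⟨⟨k⟩⟩ | ⟨⟨k⟩⟩
    · have hcn : Nat.card G = Nat.card (alternatingGroup (Fin n)) := by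
        rw [← hc]; exact Nat.card_congr k.toEquiv
      obtain rfl | rfl | rfl | rfl : n = 5 ∨ n = 6 ∨ n = 7 ∨ n = 8 := by omega
      · left
        rw [nat_card_alternatingGroup] at hcn
        have h1 : Nat.card G = 60 := by rw [hcn]; simp [Nat.factorial]
        have h2 : ι.range = ⊤ := Subgroup.eq_top_of_card_eq _ (by rw [hcL, h1])
        rw [h2]; infer_instance
      · left
        rw [nat_card_alternatingGroup] at hcn
        have h1 : Nat.card G = 360 := by rw [hcn]; simp [Nat.factorial]
        set N := Subgroup.normalizer (ι.range : Set G) with hN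
        have h2 : 60 ∣ Nat.card N := by
          rw [← hcL]
          exact Subgroup.card_dvd_of_le Subgroup.le_normalizer
        have h3 : Nat.card (P0 : Subgroup G) = 8 := by
          have h4 : Nat.card (P0 : Subgroup G) * (P0 : Subgroup G).index = Nat.card G := Subgroup.card_mul_index _
          have h5 : ¬ 2 ∣ (P0 : Subgroup G).index := P0.not_dvd_index
          have h6 := card_P0 θ ι hθ hι P0 hP1 hP2 hF
          have h7 : Nat.card (P0 : Subgroup G) ≤ 8 := Nat.le_of_dvd (by norm_num) h6
          rw [h1] at h4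
          interval_cases h8 : Nat.card (P0 : Subgroup G) <;> omega
        have h4 : 8 ∣ Nat.card N := by
          rw [← h3]; exact Subgroup.card_dvd_of_le hP2
        have h5 : Nat.card N ∣ 360 := by rw [← h1]; exact Subgroup.card_subgroup_dvd_card _
        have h6 : 120 ∣ Nat.card N := Nat.lcm_dvd h2 h4 |> fun h => by
          have : Nat.lcm 60 8 = 120 := by decide
          rwa [this] at h
        have h7 : Nat.card N = 120 ∨ Nat.card N = 360 := by
          obtain ⟨c, hc'⟩ := h6
          have h8 : Nat.card N ≤ 360 := Nat.le_of_dvd (by norm_num) h5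
          have h9 : 0 < Nat.card N := Nat.card_pos
          have h10 : c ≤ 3 := by omega
          interval_cases c
          · omega
          · left; exact hc'
          · rw [hc'] at h5; norm_num at h5
          · right; exact hc'
        rcases h7 with h7 | h7
        · exfalso
          haveI : IsSimpleGroup (alternatingGroup (Fin 6)) := alternatingGroup.isSimpleGroup (by simp)
          haveI : Nontrivial G := (Finite.one_lt_card_iff_nontrivial).mp (by omega)
          have hsG : IsSimpleGroup G :=
            IsSimpleGroup.isSimpleGroup_of_surjective (e.trans k).symm.toMonoidHom (e.trans k).symm.surjective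
          have h8 : Nat.card N * N.index = Nat.card G := Subgroup.card_mul_index _
          exact no_index_three hsG h1 N (by rw [h7, h1] at h8; omega)
        · have h8 : N = ⊤ := Subgroup.eq_top_of_card_eq _ (by rw [h7, h1])
          exact Subgroup.normalizer_eq_top_iff.mp h8
      · right
        exact ⟨e.trans k⟩
      · exfalso
        rw [nat_card_alternatingGroup] at hcn
        have h1 : Nat.card G = 20160 := by rw [hcn]; simp [Nat.factorial]
        rw [h1] at hcG
        norm_num at hcG
    · left
      have h1 : Nat.card G = 120 := by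
        rw [← hc, Nat.card_congr k.toEquiv, Nat.card_perm]; simp [Nat.factorial]
      have h2 : Nat.card ι.range * ι.range.index = Nat.card G := Subgroup.card_mul_index _
      rw [hcL, h1] at h2
      exact Subgroup.normal_of_index_eq_two (by omega)
    · exfalso
      have h1 : Nat.card G = 720 := by
        rw [← hc, Nat.card_congr k.toEquiv, Nat.card_perm]; simp [Nat.factorial]
      rw [h1] at hcG
      norm_num at hcG
  · left
    have hns' : ∃ N : Subgroup G, N.Normal ∧ Group.IsSolvable N ∧ N ≠ ⊥ := by
      by_contra hcon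
      push Not at hcon
      exact hns (fun N h1 h2 => hcon N h1 h2)
    obtain ⟨N, hN1, hN2, hN3⟩ := hns'
    obtain ⟨V, r, hVn, hVb, hVN, hr, hexp, hcomm⟩ := Cfsg.Agent.H57.exists_normal_prime_exponent N hN3 hN2
    by_cases hr2 : r = 2
    · subst hr2
      exact absurd (no_two θ ι hθ hι V (fun x => ⟨1, Subtype.ext (by rw [pow_one]; exact hexp x x.2)⟩)) hVb
    · exact normal_of_odd θ ι hθ hι P0 hP1 hP2 hF V hVb r hr hr2 hexp hcomm

end sylow

include hι hθ in
theorem main {p : ℕ} [Fact p.Prime] [CharP F p]
    (hS : ∀ (S : Sylow p (Subgroup.normalizer (ι.range : Set G))) (P : Sylow p G), Nat.card S = Nat.card P) :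
    ι.range.Normal ∨ (Nat.card F = 4 ∧ Nonempty (G ≃* alternatingGroup (Fin 7))) := by
  classical
  letI : Algebra (ZMod p) F := ZMod.algebra F p
  -- the Sylow subgroup
  set N := Subgroup.normalizer (ι.range : Set G) with hN
  have hLN : ι.range ≤ N := Subgroup.le_normalizer
  let κ : Multiplicative F →* N := (ι.comp utHom).codRestrict N (fun x => hLN ⟨_, rfl⟩)
  have hκp : IsPGroup p κ.range := by
    rintro ⟨_, x, rfl⟩
    refine ⟨1, Subtype.ext ?_⟩
    rw [pow_one]
    show κ x ^ p = 1
    rw [← map_pow]
    have h1 : x ^ p = 1 := by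
      have h2 : p • (Multiplicative.toAdd x) = 0 := by rw [nsmul_eq_mul, CharP.cast_eq_zero, zero_mul]
      exact h2
    rw [h1, map_one]
  obtain ⟨S, hS0⟩ := hκp.exists_le_sylow
  have hSp : IsPGroup p ((S : Subgroup N).map N.subtype) := S.isPGroup'.map _
  obtain ⟨P0, hP0⟩ := hSp.exists_le_sylow
  have hP0e : (S : Subgroup N).map N.subtype = (P0 : Subgroup G) := by
    apply Subgroup.eq_of_le_of_card_ge hP0
    rw [Subgroup.card_map_of_injective N.subtype_injective]
    exact (hS S P0).ge
  have hP1 : ∀ b : F, ι (ut b) ∈ (P0 : Subgroup G) := by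
    intro b
    rw [← hP0e]
    exact ⟨κ (Multiplicative.ofAdd b), hS0 ⟨_, rfl⟩, rfl⟩
  have hP2 : (P0 : Subgroup G) ≤ N := by
    rw [← hP0e]
    exact Subgroup.map_subtype_le _
  by_cases hF : Nat.card F = 4
  · have hp2 : p = 2 := by
      haveI : Fintype F := Fintype.ofFinite F
      obtain ⟨n, hp, hn⟩ := FiniteField.card F p
      rw [← Nat.card_eq_fintype_card, hF] at hn
      have h1 : p ∣ 2 ^ 2 := by
        rw [show (2 : ℕ) ^ 2 = 4 by norm_num, hn]
        exact dvd_pow_self p n.ne_zero
      exact (Nat.prime_dvd_prime_iff_eq hp Nat.prime_two).mp (hp.dvd_of_dvd_pow h1)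
    subst hp2
    rcases four_case θ ι hθ hι P0 hP1 hP2 hF with h | h
    · exact Or.inl h
    · exact Or.inr ⟨hF, h⟩
  · left
    apply normal_of_spread θ ι hθ hι p
    intro g v hv hv1 hgv w hw
    by_contra hgw
    exact hF (q_eq_four θ ι hθ hι P0 hP1 hP2 g v w hv hv1 hgv hw hgw)

end Cfsg.Agent.Uni36.NS
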