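import Mathlib

set_option autoImplicit false

/-! Natural module of `SL₂(F)`: additive automorphisms of `F²`, scalars, semilinear maps. -/

namespace Cfsg.Agent.Uni36.NS

open Matrix

variable {F : Type*} [Field F]

/-- `SL₂(F)` acting on column vectors. -/
def sl : Matrix.SpecialLinearGroup (Fin 2) F →* AddMonoid.End (Fin 2 → F) where
  toFun l :=
    { toFun := fun w => (l : Matrix (Fin 2) (Fin 2) F).mulVec w
      map_zero' := Matrix.mulVec_zero _
      map_add' := fun a b => Matrix.mulVec_add _ _ _ }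
  map_one' := by
    ext w : 1
    show ((1 : Matrix.SpecialLinearGroup (Fin 2) F) : Matrix (Fin 2) (Fin 2) F).mulVec w = w
    rw [Matrix.SpecialLinearGroup.coe_one, Matrix.one_mulVec]
  map_mul' a b := by
    ext w : 1
    show ((a * b : Matrix.SpecialLinearGroup (Fin 2) F) : Matrix (Fin 2) (Fin 2) F).mulVec w
      = (a : Matrix (Fin 2) (Fin 2) F).mulVec ((b : Matrix (Fin 2) (Fin 2) F).mulVec w)
    rw [Matrix.mulVec_mulVec, Matrix.SpecialLinearGroup.coe_mul]

theorem sl_apply (l : Matrix.SpecialLinearGroup (Fin 2) F) (w : Fin 2 → F) :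
    sl l w = (l : Matrix (Fin 2) (Fin 2) F).mulVec w := rfl

theorem sl_smul (l : Matrix.SpecialLinearGroup (Fin 2) F) (a : F) (w : Fin 2 → F) :
    sl l (a • w) = a • sl l w := by
  rw [sl_apply, sl_apply, Matrix.mulVec_smul]

/-- upper unitriangular -/
def ut (b : F) : Matrix.SpecialLinearGroup (Fin 2) F := ⟨!![1, b; 0, 1], by simp [Matrix.det_fin_two]⟩

/-- lower unitriangular -/
def lt (b : F) : Matrix.SpecialLinearGroup (Fin 2) F := ⟨!![1, 0; b, 1], by simp [Matrix.det_fin_two]⟩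

theorem sl_ut (b : F) (w : Fin 2 → F) : sl (ut b) w = ![w 0 + b * w 1, w 1] := by
  rw [sl_apply]
  ext i
  fin_cases i <;> simp [ut, Matrix.mulVec, dotProduct, Fin.sum_univ_two]

theorem sl_lt (b : F) (w : Fin 2 → F) : sl (lt b) w = ![w 0, b * w 0 + w 1] := by
  rw [sl_apply]
  ext i
  fin_cases i <;> simp [lt, Matrix.mulVec, dotProduct, Fin.sum_univ_two]

theorem ut_mul (a b : F) : ut a * ut b = ut (a + b) := by
  apply Subtype.ext
  show !![1, a; 0, 1] * !![1, b; 0, 1] = !![1, a + b; 0, 1]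
  ext i j
  fin_cases i <;> fin_cases j <;> simp [Matrix.mul_apply, Fin.sum_univ_two, add_comm]

theorem ut_zero : ut (0 : F) = 1 := by
  apply Subtype.ext
  show !![1, (0 : F); 0, 1] = 1
  ext i j
  fin_cases i <;> fin_cases j <;> simp

theorem ut_inj {a b : F} (h : ut a = ut b) : a = b := by
  have := congrArg (fun l : Matrix.SpecialLinearGroup (Fin 2) F => (l : Matrix (Fin 2) (Fin 2) F) 0 1) h
  simpa [ut] using this

/-- the root group as a homomorphism -/
def utHom : Multiplicative F →* Matrix.SpecialLinearGroup (Fin 2) F where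
  toFun b := ut (Multiplicative.toAdd b)
  map_one' := ut_zero
  map_mul' a b := by
    show ut (Multiplicative.toAdd a + Multiplicative.toAdd b) = _
    rw [ut_mul]

theorem utHom_inj : Function.Injective (utHom : Multiplicative F →* Matrix.SpecialLinearGroup (Fin 2) F) :=
  fun a b h => ut_inj (F := F) (a := Multiplicative.toAdd a) (b := Multiplicative.toAdd b) h

theorem sl_transitive (v : Fin 2 → F) (hv : v ≠ 0) :
    ∃ l : Matrix.SpecialLinearGroup (Fin 2) F, sl l ![1, 0] = v := by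
  by_cases h0 : v 0 = 0
  · have h1 : v 1 ≠ 0 := by
      intro h1
      apply hv
      ext i
      fin_cases i
      · exact h0
      · exact h1
    have hd : (!![0, -(v 1)⁻¹; v 1, 0] : Matrix (Fin 2) (Fin 2) F).det = 1 := by
      rw [Matrix.det_fin_two]
      simp [h1]
    refine ⟨⟨_, hd⟩, ?_⟩
    · show (!![0, -(v 1)⁻¹; v 1, 0] : Matrix (Fin 2) (Fin 2) F).mulVec ![1, 0] = v
      ext i
      fin_cases i <;> simp [Matrix.mulVec, dotProduct, Fin.sum_univ_two, h0]
  · have hd : (!![v 0, 0; v 1, (v 0)⁻¹] : Matrix (Fin 2) (Fin 2) F).det = 1 := by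
      rw [Matrix.det_fin_two]
      simp [h0]
    refine ⟨⟨_, hd⟩, ?_⟩
    · show (!![v 0, 0; v 1, (v 0)⁻¹] : Matrix (Fin 2) (Fin 2) F).mulVec ![1, 0] = v
      ext i
      fin_cases i <;> simp [Matrix.mulVec, dotProduct, Fin.sum_univ_two]

theorem scalar_of_comm (φ : (Fin 2 → F) → (Fin 2 → F)) (hadd : ∀ a b, φ (a + b) = φ a + φ b)
    (h : ∀ (l : Matrix.SpecialLinearGroup (Fin 2) F) w, φ (sl l w) = sl l (φ w)) :
    ∃ d : F, ∀ w, φ w = d • w := by
  refine ⟨φ ![0, 1] 1, ?_⟩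
  set d := φ ![0, 1] 1 with hd
  have h1 : ∀ x : F, φ ![x, 0] = ![x * d, 0] := by
    intro x
    have e1 := h (ut x) ![0, 1]
    rw [sl_ut, sl_ut] at e1
    have e2 : (![(![0, 1] : Fin 2 → F) 0 + x * (![0, 1] : Fin 2 → F) 1, (![0, 1] : Fin 2 → F) 1] : Fin 2 → F)
        = ![x, 0] + ![0, 1] := by
      ext i; fin_cases i <;> simp
    rw [e2, hadd] at e1
    have e3 : (![φ ![0, 1] 0 + x * φ ![0, 1] 1, φ ![0, 1] 1] : Fin 2 → F) = ![x * d, 0] + φ ![0, 1] := by
      ext i; fin_cases i <;> simp [hd, add_comm]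
    rw [e3] at e1
    exact add_right_cancel e1
  have h2 : ∀ x : F, φ ![0, x] = ![0, x * d] := by
    intro x
    have e1 := h (lt 1) ![x, 0]
    rw [sl_lt, sl_lt, h1] at e1
    have e2 : (![(![x, 0] : Fin 2 → F) 0, 1 * (![x, 0] : Fin 2 → F) 0 + (![x, 0] : Fin 2 → F) 1] : Fin 2 → F)
        = ![x, 0] + ![0, x] := by
      ext i; fin_cases i <;> simp
    rw [e2, hadd, h1] at e1
    have e3 : (![(![x * d, 0] : Fin 2 → F) 0, 1 * (![x * d, 0] : Fin 2 → F) 0 + (![x * d, 0] : Fin 2 → F) 1] : Fin 2 → F)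
        = ![x * d, 0] + ![0, x * d] := by
      ext i; fin_cases i <;> simp
    rw [e3] at e1
    exact add_left_cancel e1
  intro w
  have e : w = ![w 0, 0] + ![0, w 1] := by
    ext i; fin_cases i <;> simp
  rw [e, hadd, h1, h2]
  ext i; fin_cases i <;> simp [mul_comm]

theorem scalar_of_lines (φ : (Fin 2 → F) → (Fin 2 → F)) (hadd : ∀ a b, φ (a + b) = φ a + φ b)
    (h : ∀ w, ∃ c : F, φ w = c • w) :
    ∃ d : F, ∀ w, φ w = d • w := by
  obtain ⟨c0, h0⟩ := h ![1, 0]
  obtain ⟨c1, h1⟩ := h ![0, 1]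
  have h01 : c0 = c1 := by
    obtain ⟨c, hc⟩ := h (![1, 0] + ![0, 1])
    rw [hadd, h0, h1] at hc
    have a0 := congrFun hc 0
    have a1 := congrFun hc 1
    simp at a0 a1
    rw [a0, a1]
  refine ⟨c0, ?_⟩
  have hx : ∀ x : F, φ ![x, 0] = c0 • ![x, 0] := by
    intro x
    obtain ⟨a, ha⟩ := h ![x, 0]
    obtain ⟨c, hc⟩ := h (![x, 0] + ![0, 1])
    rw [hadd, ha, h1] at hc
    have a0 := congrFun hc 0
    have a1 := congrFun hc 1
    simp at a0 a1
    rw [ha]
    rcases a0 with a0 | a0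
    · rw [a0, ← a1, h01]
    · rw [a0]
      ext i; fin_cases i <;> simp
  have hy : ∀ x : F, φ ![0, x] = c0 • ![0, x] := by
    intro x
    obtain ⟨a, ha⟩ := h ![0, x]
    obtain ⟨c, hc⟩ := h (![1, 0] + ![0, x])
    rw [hadd, ha, h0] at hc
    have a0 := congrFun hc 0
    have a1 := congrFun hc 1
    simp at a0 a1
    rw [ha]
    rcases a1 with a1 | a1
    · rw [a1, ← a0]
    · rw [a1]
      ext i; fin_cases i <;> simp
  intro w
  have e : w = ![w 0, 0] + ![0, w 1] := by
    ext i; fin_cases i <;> simp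
  rw [e, hadd, hx, hy, smul_add]

theorem semi_conj (g : AddMonoid.End (Fin 2 → F)) (hs : Function.Surjective g) (σ : F →+* F) (hg : ∀ (a : F) w, g (a • w) = σ a • g w)
    (l : Matrix.SpecialLinearGroup (Fin 2) F) :
    ∃ l' : Matrix.SpecialLinearGroup (Fin 2) F, ∀ w, g (sl l w) = sl l' (g w) := by
  classical
  let M : Matrix (Fin 2) (Fin 2) F := Matrix.of fun i j => g (Pi.single j 1) i
  have hM : ∀ w : Fin 2 → F, g w = M.mulVec (fun i => σ (w i)) := by
    intro w
    have e : w = w 0 • Pi.single 0 1 + w 1 • Pi.single 1 1 := by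
      ext i; fin_cases i <;> simp
    conv_lhs => rw [e]
    rw [map_add, hg, hg]
    ext i
    simp [M, Matrix.mulVec, dotProduct, Fin.sum_univ_two, mul_comm]
  have hu : IsUnit M := by
    rw [← Matrix.mulVec_surjective_iff_isUnit]
    intro w
    obtain ⟨v, rfl⟩ := hs w
    exact ⟨fun i => σ (v i), (hM v).symm⟩
  have hud : IsUnit M.det := (Matrix.isUnit_iff_isUnit_det M).mp hu
  let l' : Matrix.SpecialLinearGroup (Fin 2) F :=
    ⟨M * ((l : Matrix (Fin 2) (Fin 2) F).map σ) * M⁻¹, by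
      rw [Matrix.det_mul, Matrix.det_mul, Matrix.det_nonsing_inv]
      have e : ((l : Matrix (Fin 2) (Fin 2) F).map σ).det = 1 := by
        have := RingHom.map_det σ (l : Matrix (Fin 2) (Fin 2) F)
        rw [RingHom.mapMatrix_apply] at this
        rw [← this, l.det_coe, map_one]
      rw [e, mul_one]
      exact Ring.mul_inverse_cancel _ hud⟩
  refine ⟨l', fun w => ?_⟩
  rw [hM (sl l w), sl_apply, sl_apply, hM w, Matrix.mulVec_mulVec]
  have e1 : (l' : Matrix (Fin 2) (Fin 2) F) * M = M * ((l : Matrix (Fin 2) (Fin 2) F).map σ) := by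
    show M * ((l : Matrix (Fin 2) (Fin 2) F).map σ) * M⁻¹ * M = _
    rw [Matrix.mul_assoc, Matrix.nonsing_inv_mul _ hud, Matrix.mul_one]
  rw [e1, ← Matrix.mulVec_mulVec]
  congr 1
  ext i
  simp [Matrix.mulVec, dotProduct, Fin.sum_univ_two]

end Cfsg.Agent.Uni36.NS
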