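import Cfsg.Agent.Uni36.NS.A

set_option autoImplicit false

/-! A group acting on `F²` and containing `SL₂(F)`: semilinear elements and the Sylow subgroup. -/

namespace Cfsg.Agent.Uni36.NS

open Matrix

variable {F : Type*} [Field F] [Finite F] {p : ℕ} [Fact p.Prime] [Algebra (ZMod p) F]
variable {G : Type*} [Group G]

section basics

variable (θ : G →* AddMonoid.End (Fin 2 → F))

omit [Finite F] in
theorem th_mul (g h : G) (w : Fin 2 → F) : θ (g * h) w = θ g (θ h w) := by
  rw [map_mul]; rfl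

omit [Finite F] in
theorem th_inv (g : G) (w : Fin 2 → F) : θ g⁻¹ (θ g w) = w := by
  rw [← th_mul, inv_mul_cancel, map_one]; rfl

omit [Finite F] in
theorem th_inv' (g : G) (w : Fin 2 → F) : θ g (θ g⁻¹ w) = w := by
  rw [← th_mul, mul_inv_cancel, map_one]; rfl

omit [Finite F] in
theorem th_surj (g : G) : Function.Surjective (θ g) := fun w => ⟨θ g⁻¹ w, th_inv' θ g w⟩

omit [Finite F] in
theorem th_injective (g : G) : Function.Injective (θ g) := fun a b h => by
  rw [← th_inv θ g a, h, th_inv]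

/-- the subgroup of elements acting semilinearly -/
def Semi (p : ℕ) [Fact p.Prime] [Algebra (ZMod p) F] : Subgroup G where
  carrier := {g | ∃ σ : F ≃ₐ[ZMod p] F, ∀ (a : F) (w : Fin 2 → F), θ g (a • w) = σ a • θ g w}
  mul_mem' := by
    rintro g h ⟨σ, hσ⟩ ⟨τ, hτ⟩
    refine ⟨σ * τ, fun a w => ?_⟩
    rw [th_mul, hτ, hσ, th_mul]
    rfl
  one_mem' := ⟨1, fun a w => by rw [map_one]; rfl⟩
  inv_mem' := by
    rintro g ⟨σ, hσ⟩
    refine ⟨σ⁻¹, fun a w => ?_⟩
    apply th_injective θ g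
    rw [th_inv', hσ, th_inv']
    congr 1
    exact (AlgEquiv.apply_symm_apply σ a).symm

omit [Finite F] in
theorem sg_unique (g : G) (σ τ : F ≃ₐ[ZMod p] F)
    (h : ∀ (a : F) (w : Fin 2 → F), σ a • θ g w = τ a • θ g w) : σ = τ := by
  ext a
  obtain ⟨w, hw⟩ := th_surj θ g ![1, 0]
  have := congrFun (h a w) 0
  rw [hw] at this
  simpa using this

/-- the field automorphism of a semilinear element -/
noncomputable def sg : Semi θ p →* (F ≃ₐ[ZMod p] F) :=
  MonoidHom.mk' (fun g => g.2.choose) (by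
    intro g h
    apply sg_unique θ (g * h : G)
    intro a w
    have e1 := (g * h).2.choose_spec a w
    have e2 : θ (g * h : G) (a • w) = ((g.2.choose : F ≃ₐ[ZMod p] F) * h.2.choose) a • θ (g * h : G) w := by
      rw [th_mul, h.2.choose_spec, g.2.choose_spec, th_mul]
      rfl
    rw [← e2]
    exact e1.symm)

omit [Finite F] in
theorem sg_spec (g : Semi θ p) (a : F) (w : Fin 2 → F) : θ (g : G) (a • w) = sg θ g a • θ (g : G) w :=
  g.2.choose_spec a w

theorem mem_semi_of (g : G) (h : ∀ a : F, ∃ b : F, ∀ w : Fin 2 → F, θ g (a • w) = b • θ g w) : g ∈ Semi θ p := by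
  choose f hf using h
  obtain ⟨w0, hw0⟩ := th_surj θ g ![1, 0]
  have key : ∀ a b : F, (a • (![1, 0] : Fin 2 → F) = b • ![1, 0]) → a = b := by
    intro a b hab
    have := congrFun hab 0
    simpa using this
  let σ : F →+* F :=
    { toFun := f
      map_one' := key _ _ (by rw [← hw0, ← hf, one_smul, one_smul])
      map_mul' := fun a b => key _ _ (by
        rw [← hw0, ← hf, mul_smul, hf, hf, mul_smul])
      map_zero' := key _ _ (by rw [← hw0, ← hf, zero_smul, zero_smul, map_zero])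
      map_add' := fun a b => key _ _ (by
        rw [← hw0, ← hf, add_smul, map_add, hf, hf, add_smul]) }
  have hb : Function.Bijective σ := (Finite.injective_iff_bijective).mp σ.injective
  let τ : F ≃+* F := RingEquiv.ofBijective σ hb
  have hτ : ∀ r : ZMod p, τ (algebraMap (ZMod p) F r) = algebraMap (ZMod p) F r := by
    intro r
    have : (τ : F →+* F).comp (algebraMap (ZMod p) F) = algebraMap (ZMod p) F := Subsingleton.elim _ _
    exact RingHom.congr_fun this r
  exact ⟨AlgEquiv.ofRingEquiv (f := τ) hτ, fun a w => hf a w⟩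

end basics

section main

variable (θ : G →* AddMonoid.End (Fin 2 → F)) (ι : Matrix.SpecialLinearGroup (Fin 2) F →* G)
  (hθ : Function.Injective θ) (hι : ∀ l, θ (ι l) = sl l)

include hι in
theorem semi_of_normalizer (g : G) (hg : g ∈ Subgroup.normalizer (ι.range : Set G)) : g ∈ Semi θ p := by
  apply mem_semi_of
  intro a
  have hl : ∀ l : Matrix.SpecialLinearGroup (Fin 2) F, ∃ l', g⁻¹ * ι l * g = ι l' := by
    intro l
    have h1 := (Subgroup.mem_normalizer_iff.mp (inv_mem hg) (ι l)).mp ⟨l, rfl⟩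
    rw [inv_inv] at h1
    obtain ⟨l', hl'⟩ := h1
    exact ⟨l', hl'.symm⟩
  obtain ⟨d, hd⟩ := scalar_of_comm (fun w => θ g (a • θ g⁻¹ w))
    (fun x y => by rw [map_add, smul_add, map_add])
    (fun l w => by
      obtain ⟨l', hl'⟩ := hl l
      have e1 : θ g⁻¹ (sl l w) = sl l' (θ g⁻¹ w) := by
        rw [← hι, ← hι, ← th_mul, ← th_mul, ← hl']
        congr 2
        group
      have e2 : ∀ v, θ g (sl l' v) = sl l (θ g v) := by
        intro v
        rw [← hι, ← hι, ← th_mul, ← th_mul, ← hl']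
        congr 2
        group
      show θ g (a • θ g⁻¹ (sl l w)) = sl l (θ g (a • θ g⁻¹ w))
      rw [e1, ← sl_smul, e2])
  refine ⟨d, fun w => ?_⟩
  have := hd (θ g w)
  simp only [th_inv] at this
  exact this

include hι hθ in
omit [Finite F] in
theorem conj_of_semi (g : G) (hg : g ∈ Semi θ p) (l : Matrix.SpecialLinearGroup (Fin 2) F) :
    ∃ l', g * ι l * g⁻¹ = ι l' := by
  obtain ⟨σ, hσ⟩ := hg
  obtain ⟨l', hl'⟩ := semi_conj (θ g) (th_surj θ g) (σ : F →+* F) hσ l
  refine ⟨l', ?_⟩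
  rw [mul_inv_eq_iff_eq_mul]
  apply hθ
  ext w : 1
  rw [th_mul, th_mul, hι, hι, hl']

include hι hθ in
omit [Finite F] in
theorem normal_of_semi (h : ∀ g : G, g ∈ Semi θ p) : ι.range.Normal := by
  constructor
  rintro _ ⟨l, rfl⟩ g
  obtain ⟨l', hl'⟩ := conj_of_semi (p := p) θ ι hθ hι g (h g) l
  exact ⟨l', hl'.symm⟩

include hι hθ in
theorem normal_of_lines (p : ℕ) [Fact p.Prime] [Algebra (ZMod p) F] (h : ∀ (g : G) (a : F) (v : Fin 2 → F), ∃ c : F, θ g (a • v) = c • θ g v) :
    ι.range.Normal := by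
  apply normal_of_semi (p := p) θ ι hθ hι
  intro g
  apply mem_semi_of
  intro a
  obtain ⟨d, hd⟩ := scalar_of_lines (fun w => θ g (a • θ g⁻¹ w))
    (fun x y => by rw [map_add, smul_add, map_add])
    (fun w => by
      obtain ⟨c, hc⟩ := h g a (θ g⁻¹ w)
      exact ⟨c, by rw [hc, th_inv']⟩)
  refine ⟨d, fun w => ?_⟩
  have := hd (θ g w)
  simp only [th_inv] at this
  exact this

include hι hθ in
/-- the spread condition implies that `SL₂(F)` is normal -/
theorem normal_of_spread (p : ℕ) [Fact p.Prime] [Algebra (ZMod p) F] (h : ∀ g : G, ∀ v : Fin 2 → F, v ≠ 0 → v 1 = 0 → θ g v 1 = 0 →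
    ∀ w : Fin 2 → F, w 1 = 0 → θ g w 1 = 0) : ι.range.Normal := by
  apply normal_of_lines θ ι hθ hι p
  intro g a v
  by_cases hv : v = 0
  · exact ⟨0, by rw [hv, smul_zero, map_zero, smul_zero]⟩
  · have hgv : θ g v ≠ 0 := by
      intro h0
      apply hv
      apply th_injective θ g
      rw [h0, map_zero]
    obtain ⟨l, hl⟩ := sl_transitive v hv
    obtain ⟨l', hl'⟩ := sl_transitive (θ g v) hgv
    have e1 : θ ((ι l')⁻¹ * g * ι l) ![1, 0] = ![1, 0] := by
      rw [th_mul, th_mul, hι, hl, ← hl', ← hι, th_inv]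
    have e2 := h ((ι l')⁻¹ * g * ι l) ![1, 0] (by
      intro h0
      have := congrFun h0 0
      simp at this) (by simp) (by rw [e1]; simp) (a • ![1, 0]) (by simp)
    set u := θ ((ι l')⁻¹ * g * ι l) (a • ![1, 0]) with hu
    have hu2 : u = u 0 • ![1, 0] := by
      ext i
      fin_cases i
      · simp
      · simpa using e2
    refine ⟨u 0, ?_⟩
    have e3 : θ g (a • v) = sl l' u := by
      rw [← hι, hu, th_mul, th_mul, th_inv', hι, sl_smul, hl]
    rw [e3, hu2, sl_smul, hl']
    simp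

/-! ### the Sylow subgroup -/

omit [Finite F] [Algebra (ZMod p) F] in
theorem fixvec [Finite F] [CharP F p] (R : Subgroup G) (hR : IsPGroup p R) :
    ∃ v : Fin 2 → F, v ≠ 0 ∧ ∀ r ∈ R, θ r v = v := by
  letI : MulAction R (Fin 2 → F) :=
    { smul := fun r w => θ (r : G) w
      one_smul := fun w => by show θ ((1 : R) : G) w = w; rw [Subgroup.coe_one, map_one]; rfl
      mul_smul := fun a b w => by
        show θ ((a * b : R) : G) w = θ (a : G) (θ (b : G) w)
        rw [Subgroup.coe_mul, th_mul] }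
  have hcard : p ∣ Nat.card (Fin 2 → F) := by
    haveI : Fintype F := Fintype.ofFinite F
    obtain ⟨n, hp, hn⟩ := FiniteField.card F p
    rw [Nat.card_eq_fintype_card, Fintype.card_fun, hn]
    exact dvd_pow (dvd_pow_self p n.ne_zero) (by simp)
  obtain ⟨b, hb, h0⟩ := hR.exists_fixed_point_of_prime_dvd_card_of_fixed_point (Fin 2 → F) hcard
    (a := (0 : Fin 2 → F)) (fun r => map_zero (θ (r : G)))
  exact ⟨b, fun h => h0 h.symm, fun r hr => hb ⟨r, hr⟩⟩

include hι hθ in
theorem lin_mem [CharP F p] (P0 : Subgroup G) (hP : IsPGroup p P0) (hP1 : ∀ b : F, ι (ut b) ∈ P0)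
    (s : G) (hs : s ∈ P0) (hlin : ∀ (a : F) (w : Fin 2 → F), θ s (a • w) = a • θ s w) :
    ∃ b : F, s = ι (ut b) := by
  let R : Subgroup G :=
    { carrier := {s | s ∈ P0 ∧ ∀ (a : F) (w : Fin 2 → F), θ s (a • w) = a • θ s w}
      mul_mem' := by
        rintro x y ⟨hx, hx2⟩ ⟨hy, hy2⟩
        refine ⟨mul_mem hx hy, fun a w => ?_⟩
        rw [th_mul, hy2, hx2, th_mul]
      one_mem' := ⟨one_mem _, fun a w => by rw [map_one]; rfl⟩
      inv_mem' := by
        rintro x ⟨hx, hx2⟩
        refine ⟨inv_mem hx, fun a w => ?_⟩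
        apply th_injective θ x
        rw [th_inv', hx2, th_inv'] }
  have hR : IsPGroup p R := hP.to_le (fun x hx => hx.1)
  obtain ⟨v, hv0, hv⟩ := fixvec θ R hR
  have hut : ∀ b : F, ι (ut b) ∈ R := fun b => ⟨hP1 b, fun a w => by rw [hι, sl_smul]⟩
  have hv1 : v 1 = 0 := by
    have h1 := hv _ (hut 1)
    rw [hι, sl_ut] at h1
    have := congrFun h1 0
    simpa using this
  have hvv : v = v 0 • ![1, 0] := by
    ext i
    fin_cases i
    · simp
    · simpa using hv1
  have hv00 : v 0 ≠ 0 := by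
    intro h
    apply hv0
    rw [hvv, h, zero_smul]
  have hsR : s ∈ R := ⟨hs, hlin⟩
  have he : θ s ![1, 0] = ![1, 0] := by
    have h1 := hv s hsR
    rw [hvv, hlin] at h1
    exact smul_right_injective _ hv00 h1
  set u := θ s ![0, 1] with hu
  have hsw : ∀ w : Fin 2 → F, θ s w = ![w 0 + u 0 * w 1, u 1 * w 1] := by
    intro w
    have e : w = w 0 • ![1, 0] + w 1 • ![0, 1] := by
      ext i; fin_cases i <;> simp
    conv_lhs => rw [e]
    rw [map_add, hlin, hlin, he, ← hu]
    ext i; fin_cases i <;> simp [mul_comm]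
  have hpow : ∀ n : ℕ, ∀ w : Fin 2 → F, θ (s ^ n) w 1 = u 1 ^ n * w 1 := by
    intro n
    induction n with
    | zero => intro w; rw [pow_zero, map_one, pow_zero, one_mul]; rfl
    | succ n ih =>
      intro w
      rw [pow_succ, th_mul, ih, hsw]
      simp [pow_succ, mul_assoc]
  obtain ⟨k, hk⟩ := hP ⟨s, hs⟩
  have hk' : s ^ p ^ k = 1 := congrArg Subtype.val hk
  have h1 : u 1 ^ p ^ k = 1 := by
    have := hpow (p ^ k) ![0, 1]
    rw [hk', map_one] at this
    simpa using this.symm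
  have hu1 : u 1 = 1 := by
    have h2 : (u 1 - 1) ^ p ^ k = 0 := by
      rw [sub_pow_char_pow, h1, one_pow, sub_self]
    exact sub_eq_zero.mp ((pow_eq_zero_iff (pow_pos (Fact.out : p.Prime).pos k).ne').mp h2)
  refine ⟨u 0, ?_⟩
  apply hθ
  rw [hι]
  ext w : 1
  rw [hsw, sl_ut, hu1, one_mul]

end main

end Cfsg.Agent.Uni36.NS
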