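import Cfsg.Agent.Uni36.NS.B

set_option autoImplicit false

/-! The translates of the fixed line of a Sylow subgroup form a spread unless `|F| = 4`. -/

namespace Cfsg.Agent.Uni36.NS

open Matrix
open scoped Pointwise

variable {F : Type*} [Field F] [Finite F] {p : ℕ} [Fact p.Prime] [Algebra (ZMod p) F]
variable {G : Type*} [Group G]

variable (θ : G →* AddMonoid.End (Fin 2 → F)) (ι : Matrix.SpecialLinearGroup (Fin 2) F →* G)
  (hθ : Function.Injective θ) (hι : ∀ l, θ (ι l) = sl l)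

/-- the stabilizer of the line `w 1 = 0` -/
def Stab : Subgroup G where
  carrier := {m | ∀ w : Fin 2 → F, θ m w 1 = 0 ↔ w 1 = 0}
  mul_mem' := by
    intro a b ha hb w
    rw [th_mul, ha, hb]
  one_mem' := fun w => by rw [map_one]; rfl
  inv_mem' := by
    intro a ha w
    rw [← ha, th_inv']

omit [Finite F] in
theorem mem_Stab (m : G) : m ∈ Stab θ ↔ ∀ w : Fin 2 → F, θ m w 1 = 0 ↔ w 1 = 0 := Iff.rfl

/-- the line `w 1 = 0` -/
def V1 : AddSubgroup (Fin 2 → F) where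
  carrier := {w | w 1 = 0}
  add_mem' := by
    intro a b ha hb
    show (a + b) 1 = 0
    rw [Pi.add_apply, show a 1 = 0 from ha, show b 1 = 0 from hb, add_zero]
  zero_mem' := rfl
  neg_mem' := by
    intro a ha
    show (-a) 1 = 0
    rw [Pi.neg_apply, show a 1 = 0 from ha, neg_zero]

/-- its translates -/
def Mg (g : G) : AddSubgroup (Fin 2 → F) := V1.comap (θ g⁻¹ : (Fin 2 → F) →+ (Fin 2 → F))

omit [Finite F] in
theorem mem_V1 (w : Fin 2 → F) : w ∈ (V1 : AddSubgroup (Fin 2 → F)) ↔ w 1 = 0 := Iff.rfl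

omit [Finite F] in
theorem mem_Mg (g : G) (w : Fin 2 → F) : w ∈ Mg θ g ↔ θ g⁻¹ w 1 = 0 := Iff.rfl

omit [Finite F] in
theorem Mg_eq_iff (g : G) : Mg θ g = V1 ↔ g ∈ Stab θ := by
  rw [← inv_mem_iff, mem_Stab]
  constructor
  · intro h w
    exact SetLike.ext_iff.mp h w
  · intro h
    ext w
    exact h w

omit [Finite F] in
theorem card_Mg (g : G) : Nat.card (Mg θ g) = Nat.card (V1 : AddSubgroup (Fin 2 → F)) := by
  apply Nat.card_congr
  exact
    { toFun := fun w => ⟨θ g⁻¹ w, w.2⟩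
      invFun := fun w => ⟨θ g w, by rw [mem_Mg, th_inv]; exact w.2⟩
      left_inv := fun w => Subtype.ext (th_inv' θ g w)
      right_inv := fun w => Subtype.ext (th_inv θ g w) }

omit [Finite F] in
theorem card_V1 : Nat.card (V1 : AddSubgroup (Fin 2 → F)) = Nat.card F := by
  apply Nat.card_congr
  exact
    { toFun := fun w => (w : Fin 2 → F) 0
      invFun := fun a => ⟨![a, 0], rfl⟩
      left_inv := fun w => Subtype.ext (by
        ext i
        fin_cases i
        · rfl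
        · exact w.2.symm)
      right_inv := fun a => rfl }

omit [Finite F] in
theorem card_inter (g x : G) : Nat.card ↥(V1 ⊓ Mg θ (g⁻¹ * x * g) : AddSubgroup (Fin 2 → F))
    = Nat.card ↥(Mg θ g ⊓ Mg θ (x * g) : AddSubgroup (Fin 2 → F)) := by
  apply Nat.card_congr
  exact
    { toFun := fun w => ⟨θ g w, by
        obtain ⟨h1, h2⟩ := w.2
        refine ⟨?_, ?_⟩
        · show θ g⁻¹ (θ g w) 1 = 0
          rw [th_inv]; exact h1
        · show θ (x * g)⁻¹ (θ g w) 1 = 0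
          rw [← th_mul]
          have : (x * g)⁻¹ * g = (g⁻¹ * x * g)⁻¹ := by group
          rw [this]; exact h2⟩
      invFun := fun w => ⟨θ g⁻¹ w, by
        obtain ⟨h1, h2⟩ := w.2
        refine ⟨h1, ?_⟩
        show θ (g⁻¹ * x * g)⁻¹ (θ g⁻¹ w) 1 = 0
        rw [← th_mul]
        have : (g⁻¹ * x * g)⁻¹ * g⁻¹ = (x * g)⁻¹ := by group
        rw [this]; exact h2⟩
      left_inv := fun w => Subtype.ext (th_inv θ g w)
      right_inv := fun w => Subtype.ext (th_inv' θ g w) }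

/-- Sylow conjugation inside a subgroup containing a Sylow subgroup -/
theorem sylow_conj_in {G : Type*} [Group G] [Finite G] {p : ℕ} [Fact p.Prime] (P0 : Sylow p G) (M Y : Subgroup G)
    (hP : (P0 : Subgroup G) ≤ M) (hY : IsPGroup p Y) (hYM : Y ≤ M) :
    ∃ m ∈ M, ∀ y ∈ Y, m⁻¹ * y * m ∈ (P0 : Subgroup G) := by
  have h1 : IsPGroup p (Y.subgroupOf M) :=
    hY.of_injective (Subgroup.subgroupOfEquivOfLe hYM).toMonoidHom
      (Subgroup.subgroupOfEquivOfLe hYM).injective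
  obtain ⟨R, hR⟩ := h1.exists_le_sylow
  obtain ⟨m, hm⟩ := MulAction.exists_smul_eq M (P0.subtype hP) R
  refine ⟨m, m.2, fun y hy => ?_⟩
  have hyR : (⟨y, hYM hy⟩ : M) ∈ (R : Subgroup M) := hR hy
  rw [← hm] at hyR
  have h2 : (⟨y, hYM hy⟩ : M) ∈ (MulAut.conj m • ((P0.subtype hP : Sylow p M) : Subgroup M)) := hyR
  rw [Subgroup.mem_pointwise_smul_iff_inv_smul_mem] at h2
  have h3 : (m⁻¹ * ⟨y, hYM hy⟩ * m : M) ∈ ((P0.subtype hP : Sylow p M) : Subgroup M) := by
    have : ((MulAut.conj m)⁻¹ • (⟨y, hYM hy⟩ : M)) = m⁻¹ * ⟨y, hYM hy⟩ * m := by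
      rw [← map_inv]
      simp
    rw [← this]; exact h2
  exact h3

section sylow

variable (P0 : Sylow p G) (hP1 : ∀ b : F, ι (ut b) ∈ (P0 : Subgroup G))
  (hP2 : (P0 : Subgroup G) ≤ Subgroup.normalizer (ι.range : Set G))

include hP1 hP2 hι hθ in
theorem P0_le_stab [CharP F p] : (P0 : Subgroup G) ≤ Stab θ := by
  have key : ∀ s ∈ (P0 : Subgroup G), ∀ w : Fin 2 → F, w 1 = 0 → θ s w 1 = 0 := by
    intro s hs w hw
    have h1 : s⁻¹ * ι (ut 1) * s ∈ (P0 : Subgroup G) := mul_mem (mul_mem (inv_mem hs) (hP1 1)) hs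
    have h2 : s⁻¹ * ι (ut 1) * s ∈ ι.range := by
      have := (Subgroup.mem_normalizer_iff.mp (inv_mem (hP2 hs)) (ι (ut 1))).mp ⟨_, rfl⟩
      rwa [inv_inv] at this
    obtain ⟨l, hl⟩ := h2
    obtain ⟨b, hb⟩ := lin_mem θ ι hθ hι (P0 : Subgroup G) P0.isPGroup' hP1 _ h1 (fun a w => by
      rw [← hl, hι, sl_smul])
    have h3 : θ (ι (ut 1)) (θ s w) = θ s (θ (ι (ut b)) w) := by
      rw [← th_mul, ← th_mul, ← hb]
      congr 2
      group
    have h4 : sl (ut b) w = w := by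
      rw [sl_ut]
      ext i
      fin_cases i
      · simp [hw]
      · rfl
    rw [hι, hι, h4, sl_ut] at h3
    have := congrFun h3 0
    simpa using this
  intro s hs w
  refine ⟨fun h => ?_, key s hs w⟩
  have := key s⁻¹ (inv_mem hs) _ h
  rwa [th_inv] at this

include hP1 hP2 hι hθ in
theorem fix_mem [CharP F p] (s : G) (hs : s ∈ (P0 : Subgroup G)) (hfix : ∀ w : Fin 2 → F, w 1 = 0 → θ s w = w) :
    ∃ b : F, s = ι (ut b) := by
  obtain ⟨σ, hσ⟩ := semi_of_normalizer (p := p) θ ι hι s (hP2 hs)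
  apply lin_mem θ ι hθ hι (P0 : Subgroup G) P0.isPGroup' hP1 s hs
  intro a w
  have h1 := hσ a ![1, 0]
  rw [hfix _ (by simp), hfix _ (by simp)] at h1
  have h2 := congrFun h1 0
  have h3 : σ a = a := by simpa using h2.symm
  rw [hσ, h3]

end sylow

end Cfsg.Agent.Uni36.NS
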