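import Cfsg.Agent.Uni36.NS.C

set_option autoImplicit false

/-! The translates of the fixed line of a Sylow subgroup form a spread unless `|F| = 4`. -/

namespace Cfsg.Agent.Uni36.NS

open Matrix
open scoped Pointwise

theorem numeric {p f k q : ℕ} (hp : 2 ≤ p) (hq : q = p ^ f) (hf : k ∣ f) (hf0 : 0 < f) (hk1 : 1 < k) (hkp : k ≤ p)
    (hqk : q ≤ k * k) : q = 4 := by
  have h1 : p ^ f ≤ p ^ 2 := by
    rw [← hq, pow_two]
    exact hqk.trans (Nat.mul_le_mul hkp hkp)
  have h2 : f ≤ 2 := (Nat.pow_le_pow_iff_right hp).mp h1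
  have h3 : k ≤ f := Nat.le_of_dvd hf0 hf
  have h4 : f = 2 := by omega
  have h5 : k = 2 := by omega
  subst h4 h5
  have h6 : p ≤ 2 := by
    have h7 : p ^ 2 ≤ 2 * 2 := by rw [← hq]; exact hqk
    nlinarith
  have h7 : p = 2 := by omega
  subst h7
  rw [hq]
  norm_num

variable {F : Type*} [Field F] [Finite F] {p : ℕ} [Fact p.Prime] [Algebra (ZMod p) F]
variable {G : Type*} [Group G]

theorem card_le_of_pow {H K : Type*} [Group H] [Group K] [Finite K] [IsCyclic K] (f : H →* K)
    (hf : Function.Injective f) (hH : ∀ x : H, x ^ p = 1) : Nat.card H ≤ p := by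
  classical
  haveI : Fintype K := Fintype.ofFinite K
  have h1 := IsCyclic.card_pow_eq_one_le (α := K) (n := p) (Fact.out : p.Prime).pos
  haveI : Finite H := Finite.of_injective f hf
  haveI : Fintype H := Fintype.ofFinite H
  rw [Nat.card_eq_fintype_card]
  refine le_trans ?_ h1
  rw [← Finset.card_univ, ← Finset.card_image_of_injective Finset.univ hf]
  apply Finset.card_le_card
  intro y hy
  obtain ⟨x, -, rfl⟩ := Finset.mem_image.mp hy
  simp only [Finset.mem_filter, Finset.mem_univ, true_and]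
  rw [← map_pow, hH, map_one]

variable [Finite G]
variable (θ : G →* AddMonoid.End (Fin 2 → F)) (ι : Matrix.SpecialLinearGroup (Fin 2) F →* G)
  (hθ : Function.Injective θ) (hι : ∀ l, θ (ι l) = sl l)
variable (P0 : Sylow p G) (hP1 : ∀ b : F, ι (ut b) ∈ (P0 : Subgroup G))
  (hP2 : (P0 : Subgroup G) ≤ Subgroup.normalizer (ι.range : Set G))

include hP1 hP2 hι hθ in
theorem q_eq_four [CharP F p] (g0 : G) (v0 w0 : Fin 2 → F) (hv0 : v0 ≠ 0) (hv01 : v0 1 = 0)
    (hgv0 : θ g0 v0 1 = 0) (hw0 : w0 1 = 0) (hgw0 : θ g0 w0 1 ≠ 0) : Nat.card F = 4 := by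
  classical
  -- the maximal intersection
  obtain ⟨g, hgB, hmax⟩ := Set.exists_max_image {g : G | Mg θ g ≠ V1}
    (fun g => Nat.card ↥(V1 ⊓ Mg θ g : AddSubgroup (Fin 2 → F))) (Set.toFinite _)
    ⟨g0⁻¹, fun h => hgw0 (by
      have := (SetLike.ext_iff.mp h w0).mpr hw0
      rw [mem_Mg, inv_inv] at this
      exact this)⟩
  have hgB' : Mg θ g ≠ V1 := hgB
  set U : AddSubgroup (Fin 2 → F) := V1 ⊓ Mg θ g with hU
  have hcU : 1 < Nat.card U := by
    have h1 := hmax g0⁻¹ (fun h => hgw0 (by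
      have := (SetLike.ext_iff.mp h w0).mpr hw0
      rw [mem_Mg, inv_inv] at this
      exact this))
    refine lt_of_lt_of_le ?_ h1
    show 1 < Nat.card ↥(V1 ⊓ Mg θ g0⁻¹ : AddSubgroup (Fin 2 → F))
    rw [Finite.one_lt_card_iff_nontrivial]
    refine ⟨⟨⟨v0, hv01, ?_⟩, 0, fun h => hv0 (congrArg Subtype.val h)⟩⟩
    show θ g0⁻¹⁻¹ v0 1 = 0
    rw [inv_inv]; exact hgv0
  obtain ⟨w, hw, hw1⟩ : ∃ w ∈ Mg θ g, w 1 ≠ 0 := by
    by_contra hcon
    push Not at hcon
    have h1 : Mg θ g ≤ V1 := fun w hw => hcon w hw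
    exact hgB' (AddSubgroup.eq_of_le_of_card_ge h1 (by rw [card_Mg]))
  have hUF : Nat.card U < Nat.card F := by
    rw [← card_V1 (F := F), ← card_Mg θ g]
    by_contra hcon
    push Not at hcon
    have h1 : U = Mg θ g := AddSubgroup.eq_of_le_of_card_ge inf_le_right hcon
    have h2 : w ∈ U := by rw [h1]; exact hw
    exact hw1 h2.1
  -- the subgroup of `F`
  let ε : F →+ (Fin 2 → F) :=
    { toFun := fun b => ![b * w 1, 0]
      map_zero' := by ext i; fin_cases i <;> simp
      map_add' := fun a b => by ext i; fin_cases i <;> simp [add_mul] }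
  have hε : ∀ b, ε b = ![b * w 1, 0] := fun _ => rfl
  let B0 : AddSubgroup F := U.comap ε
  have hB0 : ∀ b : F, b ∈ B0 ↔ ![b * w 1, 0] ∈ U := fun b => Iff.rfl
  have hcB : Nat.card B0 = Nat.card U := by
    apply Nat.card_congr
    exact
      { toFun := fun b => ⟨![b * w 1, 0], b.2⟩
        invFun := fun u => ⟨(u : Fin 2 → F) 0 / w 1, by
          rw [hB0]
          have : (![(u : Fin 2 → F) 0 / w 1 * w 1, 0] : Fin 2 → F) = u := by
            ext i
            fin_cases i
            · simp [hw1]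
            · exact u.2.1.symm
          rw [this]; exact u.2⟩
        left_inv := fun b => Subtype.ext (by simp [hw1])
        right_inv := fun u => Subtype.ext (by
          ext i
          fin_cases i
          · simp [hw1]
          · exact u.2.1.symm) }
  have hfixV : ∀ (b : F) (v : Fin 2 → F), v 1 = 0 → θ (ι (ut b)) v = v := by
    intro b v hv
    rw [hι, sl_ut]
    ext i
    fin_cases i
    · simp [hv]
    · rfl
  -- the elements stabilise the translate
  have hstab : ∀ b ∈ B0, g⁻¹ * ι (ut b) * g ∈ Stab θ := by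
    intro b hb
    rw [← Mg_eq_iff]
    by_contra hne
    have h1 := hmax _ hne
    have h2 : Nat.card ↥(V1 ⊓ Mg θ (g⁻¹ * ι (ut b) * g) : AddSubgroup (Fin 2 → F)) ≤ Nat.card U := h1
    rw [card_inter] at h2
    have h3 : U ≤ Mg θ g ⊓ Mg θ (ι (ut b) * g) := by
      intro u hu
      refine ⟨hu.2, ?_⟩
      show θ (ι (ut b) * g)⁻¹ u 1 = 0
      rw [_root_.mul_inv_rev, th_mul]
      have h4 : θ (ι (ut b))⁻¹ u = u := by
        conv_lhs => rw [← hfixV b u hu.1]
        rw [th_inv]
      rw [h4]; exact hu.2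
    have h4 : U = Mg θ g ⊓ Mg θ (ι (ut b) * g) := AddSubgroup.eq_of_le_of_card_ge h3 h2
    have h5 : θ (ι (ut b)) w ∈ U := by
      rw [h4]
      refine ⟨?_, ?_⟩
      · have e : θ (ι (ut b)) w = w + ![b * w 1, 0] := by
          rw [hι, sl_ut]
          ext i; fin_cases i <;> simp
        rw [e]
        exact add_mem hw ((hB0 b).mp hb).2
      · show θ (ι (ut b) * g)⁻¹ (θ (ι (ut b)) w) 1 = 0
        rw [_root_.mul_inv_rev, th_mul, th_inv]
        exact hw
    have h6 : θ (ι (ut b)) w 1 = 0 := h5.1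
    rw [hι, sl_ut] at h6
    exact hw1 h6
  -- a Sylow conjugate
  let κ : Multiplicative F →* G := (MulAut.conj g⁻¹).toMonoidHom.comp (ι.comp utHom)
  have hκ : ∀ b : F, κ (Multiplicative.ofAdd b) = g⁻¹ * ι (ut b) * g := by
    intro b
    show g⁻¹ * ι (ut b) * g⁻¹⁻¹ = _
    rw [inv_inv]
  have hpow1 : ∀ x : Multiplicative F, x ^ p = 1 := by
    intro x
    have h1 : p • (Multiplicative.toAdd x) = 0 := by
      rw [nsmul_eq_mul, CharP.cast_eq_zero, zero_mul]
    exact h1
  let B1 : Subgroup (Multiplicative F) := AddSubgroup.toSubgroup B0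
  have hB1 : ∀ x : Multiplicative F, x ∈ B1 ↔ Multiplicative.toAdd x ∈ B0 := fun _ => Iff.rfl
  have hcB1 : Nat.card B1 = Nat.card B0 := rfl
  have hYp : IsPGroup p (B1.map κ) := by
    intro y
    refine ⟨1, ?_⟩
    obtain ⟨x, hx, hxy⟩ := y.2
    apply Subtype.ext
    rw [pow_one]
    show (y : G) ^ p = 1
    rw [← hxy, ← map_pow, hpow1, map_one]
  have hYS : B1.map κ ≤ Stab θ := by
    rintro _ ⟨x, hx, rfl⟩
    have := hstab (Multiplicative.toAdd x) hx
    rw [← hκ] at this
    exact this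
  obtain ⟨m, hm, hmY⟩ := sylow_conj_in P0 (Stab θ) (B1.map κ) (P0_le_stab θ ι hθ hι P0 hP1 hP2) hYp hYS
  let τ : Multiplicative F →* G := (MulAut.conj m⁻¹).toMonoidHom.comp κ
  have hτ : ∀ b : F, τ (Multiplicative.ofAdd b) = m⁻¹ * (g⁻¹ * ι (ut b) * g) * m := by
    intro b
    show m⁻¹ * κ (Multiplicative.ofAdd b) * m⁻¹⁻¹ = _
    rw [inv_inv, hκ]
  have hτP : ∀ x ∈ B1, τ x ∈ (P0 : Subgroup G) := by
    intro x hx
    have h1 := hmY (κ x) ⟨x, hx, rfl⟩
    show m⁻¹ * κ x * m⁻¹⁻¹ ∈ _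
    rw [inv_inv]; exact h1
  have hτS : ∀ x : B1, τ x ∈ Semi θ p := fun x => semi_of_normalizer θ ι hι _ (hP2 (hτP x x.2))
  let lam : B1 →* (F ≃ₐ[ZMod p] F) := (sg θ).comp ((τ.comp B1.subtype).codRestrict (Semi θ p) hτS)
  have hlam : Function.Injective lam := by
    rw [injective_iff_map_eq_one]
    intro x hx
    have hlin : ∀ (a : F) (v : Fin 2 → F), θ (τ x) (a • v) = a • θ (τ x) v := by
      intro a v
      have h1 := sg_spec θ (⟨τ x, hτS x⟩ : Semi θ p) a v
      have h2 : sg θ (⟨τ x, hτS x⟩ : Semi θ p) = 1 := hx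
      rw [h2] at h1
      exact h1
    obtain ⟨b', hb'⟩ := lin_mem θ ι hθ hι (P0 : Subgroup G) P0.isPGroup' hP1 _ (hτP x x.2) hlin
    -- `w` is fixed
    set b : F := Multiplicative.toAdd (x : Multiplicative F) with hb
    have h3 : θ (ι (ut b)) w = w := by
      have h4 : ι (ut b) = g * m * ι (ut b') * m⁻¹ * g⁻¹ := by
        rw [← hb']
        have : τ x = m⁻¹ * (g⁻¹ * ι (ut b) * g) * m := hτ b
        rw [this]; group
      rw [h4]
      rw [th_mul, th_mul, th_mul, th_mul]
      have h5 : (θ m⁻¹ (θ g⁻¹ w)) 1 = 0 := (inv_mem hm _).mpr hw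
      rw [hfixV b' _ h5, th_inv', th_inv']
    rw [hι, sl_ut] at h3
    have h6 := congrFun h3 0
    have h7 : b = 0 := by
      simp at h6
      rcases h6 with h6 | h6
      · exact h6
      · exact absurd h6 hw1
    apply Subtype.ext
    exact h7
  haveI : Fintype F := Fintype.ofFinite F
  have hB1p : ∀ x : B1, x ^ p = 1 := fun x => Subtype.ext (hpow1 x)
  have hkp : Nat.card B1 ≤ p := card_le_of_pow lam hlam hB1p
  have hkf : Nat.card B1 ∣ Module.finrank (ZMod p) F := by
    have h1 := Subgroup.card_dvd_of_injective lam hlam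
    rwa [IsGalois.card_aut_eq_finrank] at h1
  have hqf : Nat.card F = p ^ Module.finrank (ZMod p) F := by
    rw [Module.natCard_eq_pow_finrank (K := ZMod p) (V := F), Nat.card_zmod]
  -- the last inequality
  have hqk : Nat.card F ≤ Nat.card U * Nat.card U := by
    obtain ⟨b, hb, hb0⟩ : ∃ b ∈ B0, b ≠ 0 := by
      have h1 : 1 < Nat.card B0 := by rw [hcB]; exact hcU
      rw [Finite.one_lt_card_iff_nontrivial] at h1
      obtain ⟨b, hb⟩ := exists_ne (0 : B0)
      exact ⟨b, b.2, fun h => hb (Subtype.ext h)⟩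
    have hst := hstab b hb
    have hval : ∀ v : Fin 2 → F, v ∈ Mg θ g → (![b * v 1, 0] : Fin 2 → F) ∈ U := by
      intro v hv
      refine ⟨rfl, ?_⟩
      have e : (![b * v 1, 0] : Fin 2 → F) = θ (ι (ut b)) v - v := by
        rw [hι, sl_ut]
        ext i; fin_cases i <;> simp
      rw [e]
      refine (Mg θ g).sub_mem ?_ hv
      show θ g⁻¹ (θ (ι (ut b)) v) 1 = 0
      have h2 := (hst (θ g⁻¹ v)).mpr hv
      rw [← th_mul] at h2 ⊢
      have : g⁻¹ * ι (ut b) * g * g⁻¹ = g⁻¹ * ι (ut b) := by group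
      rw [this] at h2
      exact h2
    let δ : Mg θ g →+ U :=
      { toFun := fun v => ⟨![b * (v : Fin 2 → F) 1, 0], hval v v.2⟩
        map_zero' := by
          apply Subtype.ext
          ext i; fin_cases i <;> simp
        map_add' := fun x y => by
          apply Subtype.ext
          ext i; fin_cases i <;> simp [mul_add] }
    have h1 : Nat.card δ.ker * δ.ker.index = Nat.card (Mg θ g) := AddSubgroup.card_mul_index _
    rw [card_Mg, card_V1] at h1
    have h2 : δ.ker.index = Nat.card δ.range := AddSubgroup.index_ker δ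
    have h3 : Nat.card δ.range ≤ Nat.card U := Nat.card_le_card_of_injective _ δ.range.subtype_injective
    have h4 : Nat.card δ.ker ≤ Nat.card U := by
      have hk : ∀ x : δ.ker, ((x : Mg θ g) : Fin 2 → F) ∈ U := by
        intro x
        have h5 : δ x = 0 := x.2
        have h6 := congrFun (congrArg Subtype.val h5) 0
        have h7 : b * ((x : Mg θ g) : Fin 2 → F) 1 = 0 := h6
        rcases mul_eq_zero.mp h7 with h | h
        · exact absurd h hb0
        · exact ⟨h, x.1.2⟩
      exact Nat.card_le_card_of_injective (fun x : δ.ker => (⟨((x : Mg θ g) : Fin 2 → F), hk x⟩ : U))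
        (fun x y hxy => by
          have := congrArg Subtype.val hxy
          exact Subtype.ext (Subtype.ext this))
    rw [← h1, h2]
    exact Nat.mul_le_mul h4 h3
  have hk1 : 1 < Nat.card B1 := by rw [hcB1, hcB]; exact hcU
  exact numeric (Fact.out : p.Prime).two_le hqf hkf Module.finrank_pos hk1 hkp (by rw [hcB1, hcB]; exact hqk)

end Cfsg.Agent.Uni36.NS
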