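import Cfsg.Agent.Uni36.NS.D
import Cfsg.Agent.H43.SubGL4c

set_option autoImplicit false

/-! The case of four elements. -/

namespace Cfsg.Agent.Uni36.NS

open Matrix

set_option linter.unusedSectionVars false

variable {F : Type*} [Field F] [Finite F] [Algebra (ZMod 2) F]
variable {G : Type*} [Group G] [Finite G]

omit [Finite F] in
theorem finrank_F (hF : Nat.card F = 4) : Module.finrank (ZMod 2) F = 2 := by
  haveI : Finite F := Nat.finite_of_card_ne_zero (by rw [hF]; norm_num)
  have h1 := Module.natCard_eq_pow_finrank (K := ZMod 2) (V := F)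
  rw [hF, Nat.card_zmod] at h1
  exact Nat.pow_right_injective (le_refl 2) (by simpa using h1.symm)

omit [Finite F] in
theorem finrank_W (hF : Nat.card F = 4) : Module.finrank (ZMod 2) (Fin 2 → F) = 4 := by
  haveI : Finite F := Nat.finite_of_card_ne_zero (by rw [hF]; norm_num)
  rw [Module.finrank_pi_fintype]
  simp [finrank_F hF]

/-- additive endomorphisms are linear over the prime field -/
def endHom : AddMonoid.End (Fin 2 → F) →* Module.End (ZMod 2) (Fin 2 → F) where
  toFun f := AddMonoidHom.toZModLinearMap 2 f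
  map_one' := rfl
  map_mul' _ _ := rfl

variable (θ : G →* AddMonoid.End (Fin 2 → F)) (ι : Matrix.SpecialLinearGroup (Fin 2) F →* G)
  (hθ : Function.Injective θ) (hι : ∀ l, θ (ι l) = sl l)

include hθ in
theorem embed (hF : Nat.card F = 4) : ∃ φ : G →* Equiv.Perm (Fin 8), Function.Injective φ ∧
    φ.range ≤ alternatingGroup (Fin 8) := by
  haveI : Module.Free (ZMod 2) (Fin 2 → F) := Module.Free.of_divisionRing _ _
  haveI : Module.Finite (ZMod 2) (Fin 2 → F) := inferInstance
  let b : Module.Basis (Fin 4) (ZMod 2) (Fin 2 → F) := Module.finBasisOfFinrankEq _ _ (finrank_W hF)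
  let ρ : G →* Matrix (Fin 4) (Fin 4) (ZMod 2) :=
    ((LinearMap.toMatrixAlgEquiv b).toAlgHom : _ →* Matrix (Fin 4) (Fin 4) (ZMod 2)).comp (endHom.comp θ)
  have hρ : Function.Injective ρ := by
    intro x y hxy
    have h1 : endHom (θ x) = endHom (θ y) := (LinearMap.toMatrixAlgEquiv b).injective hxy
    apply hθ
    ext w : 1
    exact congrArg (fun f : Module.End (ZMod 2) (Fin 2 → F) => f w) h1
  have hρ' : Function.Injective ρ.toHomUnits := by
    intro x y hxy
    apply hρ
    exact congrArg Units.val hxy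
  obtain ⟨e⟩ := Cfsg.Agent.H43.exists_GL4_equiv
  refine ⟨(alternatingGroup (Fin 8)).subtype.comp (e.toMonoidHom.comp ρ.toHomUnits),
    (Subgroup.subtype_injective _).comp (e.injective.comp hρ'), ?_⟩
  rintro _ ⟨x, rfl⟩
  exact (e (ρ.toHomUnits x)).2

theorem card_sl2 (hF : Nat.card F = 4) : Nat.card (Matrix.SpecialLinearGroup (Fin 2) F) = 60 := by
  classical
  haveI : Fintype F := Fintype.ofFinite F
  have hF' : Fintype.card F = 4 := by rw [← Nat.card_eq_fintype_card]; exact hF
  have h1 := Cfsg.Agent.H4.card_SL_mul (F := F) 2 (by norm_num)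
  rw [Matrix.card_GL_field, Fin.prod_univ_two, hF'] at h1
  have h2 : (4 - 1) * Nat.card (Matrix.SpecialLinearGroup (Fin 2) F) = 180 := by
    rw [h1]; rfl
  omega

theorem simple_sl2 (hF : Nat.card F = 4) : IsSimpleGroup (Matrix.SpecialLinearGroup (Fin 2) F) := by
  classical
  haveI : Fintype F := Fintype.ofFinite F
  have hF' : Fintype.card F = 4 := by rw [← Nat.card_eq_fintype_card]; exact hF
  haveI := Matrix.ProjectiveSpecialLinearGroup.rank_two_simple (F := F) (by rw [hF])
  have hc : Subgroup.center (Matrix.SpecialLinearGroup (Fin 2) F) = ⊥ := by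
    have h3 := Cfsg.Agent.H4.card_center_SL (F := F) 2 (by norm_num)
    rw [hF'] at h3
    exact Subgroup.card_eq_one.1 h3
  have e2 : Matrix.ProjectiveSpecialLinearGroup (Fin 2) F ≃* Matrix.SpecialLinearGroup (Fin 2) F :=
    (QuotientGroup.quotientMulEquivOfEq hc).trans QuotientGroup.quotientBot
  haveI : Nontrivial (Matrix.SpecialLinearGroup (Fin 2) F) := e2.symm.toEquiv.nontrivial
  exact IsSimpleGroup.isSimpleGroup_of_surjective e2.toMonoidHom e2.surjective

theorem perfect_sl2 (hF : Nat.card F = 4) : commutator (Matrix.SpecialLinearGroup (Fin 2) F) = ⊤ := by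
  haveI := simple_sl2 hF
  rcases (inferInstance : (commutator (Matrix.SpecialLinearGroup (Fin 2) F)).Normal).eq_bot_or_eq_top with h | h
  · exfalso
    rw [commutator_def, Subgroup.commutator_eq_bot_iff_le_centralizer] at h
    have h1 := h (Subgroup.mem_top (ut (1 : F)))
    rw [Subgroup.mem_centralizer_iff] at h1
    have h2 := h1 (lt (1 : F)) (Subgroup.mem_top _)
    have h3 := congrArg (fun l : Matrix.SpecialLinearGroup (Fin 2) F => sl l ![0, 1]) h2
    simp only [map_mul] at h3
    have h4 : sl (lt (1 : F)) (sl (ut (1 : F)) ![0, 1]) = sl (ut (1 : F)) (sl (lt (1 : F)) ![0, 1]) := h3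
    rw [sl_lt, sl_ut, sl_ut, sl_lt] at h4
    have h5 := congrFun h4 1
    simp at h5
  · exact h

include hθ hι in
/-- no nontrivial normal 2-subgroup -/
theorem no_two [CharP F 2] (N : Subgroup G) [N.Normal] (hN : IsPGroup 2 N) : N = ⊥ := by
  obtain ⟨v, hv0, hv⟩ := fixvec θ N hN
  rw [Subgroup.eq_bot_iff_forall]
  intro n hn
  apply hθ
  rw [map_one]
  ext w : 1
  show θ n w = w
  by_cases hw : w = 0
  · rw [hw, map_zero]
  obtain ⟨l1, h1⟩ := sl_transitive v hv0
  obtain ⟨l2, h2⟩ := sl_transitive w hw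
  have h3 : θ (ι (l2 * l1⁻¹)) v = w := by
    rw [map_mul, th_mul, map_inv]
    have : θ (ι l1)⁻¹ v = ![1, 0] := by rw [← h1, ← hι, th_inv]
    rw [this, hι, h2]
  have h4 := hv _ ((inferInstance : N.Normal).conj_mem n hn (ι (l2 * l1⁻¹))⁻¹)
  rw [inv_inv] at h4
  conv_rhs => rw [← h3, ← h4]
  rw [← h3, ← th_mul, ← th_mul]
  congr 2
  group

section sylow

variable (P0 : Sylow 2 G) (hP1 : ∀ b : F, ι (ut b) ∈ (P0 : Subgroup G))
  (hP2 : (P0 : Subgroup G) ≤ Subgroup.normalizer (ι.range : Set G))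

include hP1 hP2 hι hθ in
theorem card_P0 [CharP F 2] (hF : Nat.card F = 4) : Nat.card (P0 : Subgroup G) ∣ 8 := by
  haveI : Fact (Nat.Prime 2) := ⟨Nat.prime_two⟩
  have hS : ∀ x ∈ (P0 : Subgroup G), x ∈ Semi θ 2 := fun x hx => semi_of_normalizer θ ι hι _ (hP2 hx)
  let f : (P0 : Subgroup G) →* (F ≃ₐ[ZMod 2] F) := (sg θ).comp ((P0 : Subgroup G).subtype.codRestrict (Semi θ 2)
    (fun x => hS x x.2))
  have hk : ∀ x : f.ker, ∃ b : F, ((x : (P0 : Subgroup G)) : G) = ι (ut b) := by
    intro x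
    apply lin_mem θ ι hθ hι (P0 : Subgroup G) P0.isPGroup' hP1 _ x.1.2
    intro a v
    have h1 := sg_spec θ (⟨x.1, hS x.1 x.1.2⟩ : Semi θ 2) a v
    have h2 : sg θ (⟨x.1, hS x.1 x.1.2⟩ : Semi θ 2) = 1 := x.2
    rw [h2] at h1
    exact h1
  choose c hc using hk
  have h1 : Nat.card f.ker ≤ 4 := by
    rw [← hF]
    apply Nat.card_le_card_of_injective c
    intro x y hxy
    apply Subtype.ext
    apply Subtype.ext
    rw [hc, hc, hxy]
  have h2 : f.ker.index = Nat.card f.range := Subgroup.index_ker f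
  have h3 : Nat.card f.range ≤ 2 := by
    have h4 : Nat.card f.range ≤ Nat.card (F ≃ₐ[ZMod 2] F) :=
      Nat.card_le_card_of_injective _ f.range.subtype_injective
    rw [IsGalois.card_aut_eq_finrank, finrank_F hF] at h4
    exact h4
  have h5 : Nat.card f.ker * f.ker.index = Nat.card (P0 : Subgroup G) := Subgroup.card_mul_index _
  have h6 : Nat.card (P0 : Subgroup G) ≤ 8 := by
    rw [← h5, h2]
    calc _ ≤ 4 * 2 := Nat.mul_le_mul h1 h3
      _ = 8 := by norm_num
  obtain ⟨n, hn⟩ := P0.isPGroup'.exists_card_eq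
  rw [hn] at h6 ⊢
  have h7 : n ≤ 3 := by
    have : 2 ^ n ≤ 2 ^ 3 := by simpa using h6
    exact (Nat.pow_le_pow_iff_right (by norm_num)).mp this
  exact pow_dvd_pow 2 h7

include hP1 hP2 hι hθ in
theorem card_G [CharP F 2] (hF : Nat.card F = 4) : Nat.card G ∣ 2520 := by
  haveI : Fact (Nat.Prime 2) := ⟨Nat.prime_two⟩
  obtain ⟨φ, hφ, hφ2⟩ := embed θ hθ hF
  have h1 : Nat.card G ∣ 20160 := by
    have h2 : Nat.card G = Nat.card φ.range := Nat.card_congr (MonoidHom.ofInjective hφ).toEquiv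
    have h3 := Subgroup.card_dvd_of_le hφ2
    rw [← h2, nat_card_alternatingGroup] at h3
    simpa [Nat.factorial] using h3
  have h4 : Nat.card (P0 : Subgroup G) * (P0 : Subgroup G).index = Nat.card G := Subgroup.card_mul_index _
  have h5 : (P0 : Subgroup G).index ∣ 315 := by
    have h6 : (P0 : Subgroup G).index ∣ 64 * 315 := by
      have : (P0 : Subgroup G).index ∣ Nat.card G := ⟨_, by rw [mul_comm]; exact h4.symm⟩
      exact this.trans (by simpa using h1)
    have h7 : Nat.Coprime (P0 : Subgroup G).index 64 := by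
      have h8 : ¬ 2 ∣ (P0 : Subgroup G).index := P0.not_dvd_index
      have h9 : Nat.Coprime (P0 : Subgroup G).index 2 :=
        ((Nat.Prime.coprime_iff_not_dvd Nat.prime_two).mpr h8).symm
      have := Nat.Coprime.pow_right 6 h9
      simpa using this
    exact h7.dvd_of_dvd_mul_left h6
  rw [← h4]
  exact Nat.mul_dvd_mul (card_P0 θ ι hθ hι P0 hP1 hP2 hF) h5

end sylow

end Cfsg.Agent.Uni36.NS
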