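import Cfsg.Agent.Uni36.NS.E

set_option autoImplicit false
set_option linter.unusedSectionVars false

/-! The case of four elements: `SL₂(4)` is normal or the group is `A₇`. -/

namespace Cfsg.Agent.Uni36.NS

open Matrix

variable {F : Type*} [Field F] [Finite F] [Algebra (ZMod 2) F]
variable {G : Type*} [Group G] [Finite G]

variable (θ : G →* AddMonoid.End (Fin 2 → F)) (ι : Matrix.SpecialLinearGroup (Fin 2) F →* G)
  (hθ : Function.Injective θ) (hι : ∀ l, θ (ι l) = sl l)

include hθ hι in
theorem iota_inj : Function.Injective ι := by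
  intro x y hxy
  have h1 : sl x = sl y := by rw [← hι, ← hι, hxy]
  apply Subtype.ext
  ext i j
  have h2 := congrFun (congrArg (fun f : AddMonoid.End (Fin 2 → F) => f (Pi.single j 1)) h1) i
  simp only [sl_apply] at h2
  simpa using h2

theorem four_elements (hF : Nat.card F = 4) [CharP F 2] (d : F) (h0 : d ≠ 0) (h1 : d ≠ 1) (a : F) :
    a = 0 ∨ a = 1 ∨ a = d ∨ a = d * d := by
  classical
  haveI : Fintype F := Fintype.ofFinite F
  by_contra hcon
  push Not at hcon
  obtain ⟨a0, a1, a2, a3⟩ := hcon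
  have h3 : d * d ≠ 0 := mul_ne_zero h0 h0
  have h4 : d * d ≠ d := fun h => h1 (mul_right_cancel₀ h0 (by rw [h, one_mul]))
  have h5 : d * d ≠ 1 := by
    intro h
    have h6 : (d - 1) ^ 2 = 0 := by
      rw [sub_pow_char, one_pow, pow_two, h, sub_self]
    exact h1 (sub_eq_zero.mp ((pow_eq_zero_iff (by norm_num)).mp h6))
  have h6 : ({0, 1, d, d * d, a} : Finset F).card = 5 := by
    rw [Finset.card_insert_of_notMem, Finset.card_insert_of_notMem, Finset.card_insert_of_notMem,
      Finset.card_insert_of_notMem, Finset.card_singleton]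
    · simp [Ne.symm a3]
    · simp [Ne.symm h4, Ne.symm a2]
    · simp [Ne.symm h1, Ne.symm h5, Ne.symm a1]
    · simp [Ne.symm h0, Ne.symm h3, Ne.symm a0]
  have h7 := Finset.card_le_univ ({0, 1, d, d * d, a} : Finset F)
  rw [h6, ← Nat.card_eq_fintype_card, hF] at h7
  omega

section sylow

variable (P0 : Sylow 2 G) (hP1 : ∀ b : F, ι (ut b) ∈ (P0 : Subgroup G))
  (hP2 : (P0 : Subgroup G) ≤ Subgroup.normalizer (ι.range : Set G))

include hP1 hP2 hι hθ in
/-- a normal elementary abelian subgroup of odd order makes everything semilinear -/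
theorem normal_of_odd [CharP F 2] (hF : Nat.card F = 4) (V : Subgroup G) [V.Normal] (hV : V ≠ ⊥) (r : ℕ) (hr : r.Prime)
    (hr2 : r ≠ 2) (hexp : ∀ x ∈ V, x ^ r = 1) (hcomm : ∀ x ∈ V, ∀ y ∈ V, x * y = y * x) :
    ι.range.Normal := by
  classical
  haveI : Fact (Nat.Prime 2) := ⟨Nat.prime_two⟩
  haveI : Fact r.Prime := ⟨hr⟩
  haveI := simple_sl2 hF
  have hinj := iota_inj θ ι hθ hι
  -- `V` meets `SL₂` trivially
  have h1 : V.comap ι = ⊥ := by
    rcases (inferInstance : (V.comap ι).Normal).eq_bot_or_eq_top with h | h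
    · exact h
    · exfalso
      have h2 : ∀ x y : Matrix.SpecialLinearGroup (Fin 2) F, x * y = y * x := by
        intro x y
        apply hinj
        rw [map_mul, map_mul]
        exact hcomm _ (by have : x ∈ V.comap ι := by rw [h]; exact Subgroup.mem_top x
                          exact this) _ (by have : y ∈ V.comap ι := by rw [h]; exact Subgroup.mem_top y
                                            exact this)
      have h3 := perfect_sl2 hF
      have h4 : commutator (Matrix.SpecialLinearGroup (Fin 2) F) = ⊥ := by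
        rw [commutator_def, Subgroup.commutator_eq_bot_iff_le_centralizer]
        intro x _
        rw [Subgroup.mem_centralizer_iff]
        intro y _
        exact h2 y x
      exact bot_ne_top (h4.symm.trans h3)
  have h2 : Nat.card (Matrix.SpecialLinearGroup (Fin 2) F) ∣ Nat.card (G ⧸ V) := by
    apply Subgroup.card_dvd_of_injective ((QuotientGroup.mk' V).comp ι)
    rw [injective_iff_map_eq_one]
    intro x hx
    have h3 : ι x ∈ V := (QuotientGroup.eq_one_iff _).mp hx
    have h4 : x ∈ V.comap ι := h3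
    rw [h1] at h4
    exact Subgroup.mem_bot.mp h4
  rw [card_sl2 hF] at h2
  have h3 : Nat.card G = Nat.card (G ⧸ V) * Nat.card V := Subgroup.card_eq_card_quotient_mul_card_subgroup V
  have h4 : 60 * Nat.card V ∣ 60 * 42 := by
    have h5 := card_G θ ι hθ hι P0 hP1 hP2 hF
    rw [h3] at h5
    exact (Nat.mul_dvd_mul_right h2 _).trans h5
  have h5 : Nat.card V ∣ 42 := Nat.dvd_of_mul_dvd_mul_left (by norm_num) h4
  have hVp : IsPGroup r V := fun x => ⟨1, Subtype.ext (by rw [pow_one]; exact hexp x x.2)⟩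
  obtain ⟨n, hn⟩ := hVp.exists_card_eq
  have hn0 : n ≠ 0 := by
    rintro rfl
    rw [pow_zero] at hn
    exact hV (Subgroup.card_eq_one.mp hn)
  have hn1 : n = 1 := by
    by_contra hne
    have h6 : r ^ 2 ∣ 42 := (pow_dvd_pow r (show 2 ≤ n by omega)).trans (by rw [← hn]; exact h5)
    have h7 : Squarefree 42 := by
      rw [Nat.squarefree_iff_minSqFac]
      decide +kernel
    have h8 := h7 r (by rw [← pow_two]; exact h6)
    exact hr.one_lt.ne' (Nat.isUnit_iff.mp h8)
  subst hn1
  rw [pow_one] at hn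
  haveI : IsCyclic V := isCyclic_of_prime_card hn
  -- `SL₂` centralizes `V`
  let c : Matrix.SpecialLinearGroup (Fin 2) F →* MulAut V := (MulAut.conjNormal (H := V)).comp ι
  have hcker : c.ker = ⊤ := by
    rw [eq_top_iff, ← perfect_sl2 hF, commutator_def, Subgroup.commutator_le]
    intro x _ y _
    rw [MonoidHom.mem_ker, map_commutatorElement, commutatorElement_eq_one_iff_mul_comm]
    apply (IsCyclic.mulAutMulEquiv V).injective
    rw [map_mul, map_mul, mul_comm]
  have hcen : ∀ (l : Matrix.SpecialLinearGroup (Fin 2) F), ∀ v ∈ V, ι l * v = v * ι l := by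
    intro l v hv
    have h6 : l ∈ c.ker := by rw [hcker]; exact Subgroup.mem_top l
    have h7 := congrArg (fun f : MulAut V => ((f ⟨v, hv⟩ : V) : G)) (MonoidHom.mem_ker.mp h6)
    have h8 : ι l * v * (ι l)⁻¹ = v := h7
    exact mul_inv_eq_iff_eq_mul.mp h8
  have hsc : ∀ v ∈ V, ∃ d : F, ∀ w, θ v w = d • w := by
    intro v hv
    apply scalar_of_comm _ (fun a b => map_add _ _ _)
    intro l w
    rw [← hι, ← th_mul, ← th_mul, hcen l v hv]
  obtain ⟨v, hv, hv1⟩ : ∃ v ∈ V, v ≠ 1 := by
    by_contra hcon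
    push Not at hcon
    exact hV ((Subgroup.eq_bot_iff_forall V).mpr hcon)
  obtain ⟨d, hd⟩ := hsc v hv
  have hd1 : d ≠ 1 := by
    rintro rfl
    apply hv1
    apply hθ
    rw [map_one]
    ext w : 1
    rw [hd, one_smul]; rfl
  have hd0 : d ≠ 0 := by
    rintro rfl
    have h6 : θ v ![1, 0] = θ v 0 := by rw [hd, map_zero, zero_smul]
    have h7 := congrFun (th_injective θ v h6) 0
    simp at h7
  have hconj : ∀ g : G, ∃ d' : F, ∀ w, θ g (d • w) = d' • θ g w := by
    intro g
    obtain ⟨d', hd'⟩ := hsc _ ((inferInstance : V.Normal).conj_mem v hv g)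
    refine ⟨d', fun w => ?_⟩
    rw [← hd', ← hd, ← th_mul, ← th_mul]
    congr 2
    group
  apply normal_of_semi (p := 2) θ ι hθ hι
  intro g
  apply mem_semi_of
  intro a
  obtain ⟨d', hd'⟩ := hconj g
  rcases four_elements hF d hd0 hd1 a with rfl | rfl | rfl | rfl
  · exact ⟨0, fun w => by rw [zero_smul, zero_smul, map_zero]⟩
  · exact ⟨1, fun w => by rw [one_smul, one_smul]⟩
  · exact ⟨d', hd'⟩
  · exact ⟨d' * d', fun w => by rw [mul_smul, hd', hd', mul_smul]⟩

end sylow

end Cfsg.Agent.Uni36.NS
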